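import Mathlib
import Cfsg.Agent.Lib.Helper50.HUPT.Defs

/-!
# HUPT package [XN] (S3360)
-/

set_option autoImplicit false

universe u v

namespace Cfsg.Agent.Lib.Helper66.HUPT

open Cfsg.Agent.Lib.Helper50.HUPT
open Cfsg.Agent.Lib.Helper49.HUP (Irr)

/-- class-2 commutator power identity -/
theorem cm_pow_left {G : Type v} [Group G] (a b : G) (h : cm a b * a = a * cm a b) (k : ℕ) :
    cm (a ^ k) b = cm a b ^ k := by
  induction k with
  | zero => simp [cm]
  | succ k ih =>
    have h1 : cm (a ^ (k + 1)) b = a * cm (a ^ k) b * a⁻¹ * cm a b := by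
      simp only [cm, pow_succ']
      group
    rw [h1, ih]
    have h2 : cm a b ^ k * a = a * cm a b ^ k := by
      have := (Commute.pow_left (show Commute (cm a b) a from h) k)
      exact this
    have h3 : a * cm a b ^ k * a⁻¹ = cm a b ^ k := by
      rw [← h2]; group
    rw [h3, pow_succ]

theorem toE_mul {q : ℕ} [Fact q.Prime] {V : Type u} [AddCommGroup V] [Module (ZMod q) V]
    {G : Type v} [Group G] (ρ : G →* (V ≃ₗ[ZMod q] V)) (a b : G) :
    toE ρ (a * b) = toE ρ a * toE ρ b := by
  ext v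
  simp [toE]

theorem toE_one {q : ℕ} [Fact q.Prime] {V : Type u} [AddCommGroup V] [Module (ZMod q) V]
    {G : Type v} [Group G] (ρ : G →* (V ≃ₗ[ZMod q] V)) :
    toE ρ 1 = 1 := by
  ext v
  simp [toE]

theorem toE_inj {q : ℕ} [Fact q.Prime] {V : Type u} [AddCommGroup V] [Module (ZMod q) V]
    {G : Type v} [Group G] (ρ : G →* (V ≃ₗ[ZMod q] V)) (hinj : Function.Injective ρ) {a b : G}
    (h : toE ρ a = toE ρ b) : a = b := by
  apply hinj
  ext v
  have := congrArg (fun f : Module.End (ZMod q) V => f v) h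
  simpa [toE] using this

/-- [XN] -/
theorem pkgXN (hAbn : PkgAbn.{u, v}) (hSq : PkgSq.{v}) (hDeg : PkgDeg.{u, v})
    (hXSyl : PkgXSyl.{v}) : PkgXN.{u, v} := by
  intro q _ V _ _ _ _ G _ _ ρ hinj hTr n p r hn hV hp hr hrp M hM
  obtain ⟨hMn, hMr, hCl2, hpow, hnab, hFpf⟩ := hM
  have := hMn
  -- A := ZM M
  have hAn : (ZM M).Normal := by
    unfold ZM
    have : (Subgroup.centralizer (M : Set G)).Normal := Subgroup.normal_centralizer
    exact Subgroup.normal_inf_normal _ _
  have hAab : Ab (ZM M) := by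
    intro a ha b hb
    have h1 : a ∈ Subgroup.centralizer (M : Set G) := ha.2
    have h2 : b ∈ M := hb.1
    exact (Subgroup.mem_centralizer_iff.mp h1 b h2).symm
  obtain ⟨hAcyc, hFld, -⟩ := hAbn ρ hinj hTr (ZM M) hAn hAab
  -- a noncommuting pair
  have hex : ∃ a ∈ M, ∃ b ∈ M, a * b ≠ b * a := by
    by_contra hcon
    push_neg at hcon
    exact hnab hcon
  obtain ⟨a, ha, b, hb, hab⟩ := hex
  set z : G := cm a b with hz
  have hzM : z ∈ M := by
    simp only [hz, cm]
    exact M.mul_mem (M.mul_mem (M.mul_mem ha hb) (M.inv_mem ha)) (M.inv_mem hb)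
  have hcmA : ∀ a' ∈ M, ∀ b' ∈ M, cm a' b' ∈ ZM M := by
    intro a' ha' b' hb'
    refine ⟨?_, ?_⟩
    · simp only [cm]
      exact M.mul_mem (M.mul_mem (M.mul_mem ha' hb') (M.inv_mem ha')) (M.inv_mem hb')
    · show cm a' b' ∈ Subgroup.centralizer (M : Set G)
      rw [Subgroup.mem_centralizer_iff]
      intro c hc
      exact (hCl2 a' ha' b' hb' c hc).symm
  have hcmr : ∀ a' ∈ M, ∀ b' ∈ M, cm a' b' ^ r = 1 := by
    intro a' ha' b' hb'
    have h1 := cm_pow_left a' b' (hCl2 a' ha' b' hb' a' ha') r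
    rw [← h1]
    have h2 := hpow a' ha' b' hb'
    simp only [cm]
    rw [h2]; group
  have hzA : z ∈ ZM M := hcmA a ha b hb
  have hz1 : z ≠ 1 := by
    intro h
    apply hab
    have : a * b * a⁻¹ * b⁻¹ = 1 := h
    calc a * b = (a * b * a⁻¹ * b⁻¹) * (b * a) := by group
      _ = b * a := by rw [this, one_mul]
  have hzr : z ^ r = 1 := hcmr a ha b hb
  have hzord : orderOf z = r := by
    have hdvd := orderOf_dvd_of_pow_eq_one hzr
    rcases (Nat.dvd_prime hr).mp hdvd with h | h
    · exact absurd (orderOf_eq_one_iff.mp h) hz1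
    · exact h
  -- every commutator lies in zpowers z
  have hcmz : ∀ a' ∈ M, ∀ b' ∈ M, cm a' b' ∈ Subgroup.zpowers z := by
    intro a' ha' b' hb'
    classical
    haveI : IsCyclic (ZM M) := hAcyc
    haveI : Fintype (ZM M) := Fintype.ofFinite _
    let z' : ZM M := ⟨z, hzA⟩
    let c' : ZM M := ⟨cm a' b', hcmA a' ha' b' hb'⟩
    have hz'ord : orderOf z' = r := by
      rw [← hzord]
      exact Subgroup.orderOf_mk z hzA
    have hle := IsCyclic.card_pow_eq_one_le (α := ZM M) (n := r) hr.pos
    set S : Finset (ZM M) := Finset.univ.filter (fun x : ZM M => x ^ r = 1) with hS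
    set T : Finset (ZM M) := Finset.univ.filter (fun x : ZM M => x ∈ Subgroup.zpowers z') with hT
    have hTS : T ⊆ S := by
      intro x hx
      simp only [hT, Finset.mem_filter, Finset.mem_univ, true_and] at hx
      simp only [hS, Finset.mem_filter, Finset.mem_univ, true_and]
      obtain ⟨k, rfl⟩ := Subgroup.mem_zpowers_iff.mp hx
      have hz'r : z' ^ r = 1 := by rw [← hz'ord]; exact pow_orderOf_eq_one z'
      rw [← zpow_natCast, ← zpow_mul, mul_comm, zpow_mul, zpow_natCast, hz'r, one_zpow]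
    have hTcard : T.card = r := by
      have h1 : T.card = Nat.card (Subgroup.zpowers z') := by
        rw [Nat.card_eq_fintype_card, Fintype.card_subtype]
      rw [h1, Nat.card_zpowers, hz'ord]
    have hST : S = T := by
      symm
      apply Finset.eq_of_subset_of_card_le hTS
      rw [hTcard]; exact hle
    have hc'S : c' ∈ S := by
      simp only [hS, Finset.mem_filter, Finset.mem_univ, true_and]
      apply Subtype.ext
      simp only [Subgroup.coe_pow, Subgroup.coe_one]
      exact hcmr a' ha' b' hb'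
    rw [hST] at hc'S
    simp only [hT, Finset.mem_filter, Finset.mem_univ, true_and] at hc'S
    obtain ⟨k, hk⟩ := Subgroup.mem_zpowers_iff.mp hc'S
    rw [Subgroup.mem_zpowers_iff]
    refine ⟨k, ?_⟩
    have := congrArg (fun x : ZM M => (x : G)) hk
    simpa using this
  -- SQ
  haveI : Finite M := inferInstance
  let zM : M := ⟨z, hzM⟩
  have hzMc : zM ∈ Subgroup.center M := by
    rw [Subgroup.mem_center_iff]
    intro g
    apply Subtype.ext
    simp only [Subgroup.coe_mul]
    have h1 : z ∈ Subgroup.centralizer (M : Set G) := hzA.2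
    exact (Subgroup.mem_centralizer_iff.mp h1 g g.2)
  have hzMord : orderOf zM = r := by
    rw [← hzord]; exact Subgroup.orderOf_mk z hzM
  have hSqh : ∀ a' b' : M, cm a' b' ∈ Subgroup.zpowers zM := by
    intro a' b'
    obtain ⟨k, hk⟩ := Subgroup.mem_zpowers_iff.mp (hcmz a' a'.2 b' b'.2)
    rw [Subgroup.mem_zpowers_iff]
    refine ⟨k, ?_⟩
    apply Subtype.ext
    simp only [Subgroup.coe_zpow, cm, Subgroup.coe_mul, Subgroup.coe_inv]
    simpa [cm] using hk
  obtain ⟨d, hd⟩ := hSq (Q := M) r zM hr hzMc hzMord hSqh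
  have hdpos : 0 < d := by
    rcases Nat.eq_zero_or_pos d with h0 | h0
    · exfalso
      rw [h0] at hd
      simp only [mul_zero, pow_zero] at hd
      have htop : Subgroup.center M = ⊤ := Subgroup.index_eq_one.mp hd
      apply hab
      have h1 : (⟨a, ha⟩ : M) ∈ Subgroup.center M := by rw [htop]; trivial
      have h2 := Subgroup.mem_center_iff.mp h1 ⟨b, hb⟩
      have := congrArg (fun x : M => (x : G)) h2
      simpa using this.symm
    · exact h0
  -- DEG
  have hK1 : ∀ a' ∈ M, (∀ b' ∈ M, a' * b' = b' * a') → toE ρ a' ∈ KA ρ (ZM M) := by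
    intro a' ha' hcen
    apply Algebra.subset_adjoin
    refine ⟨a', ⟨ha', ?_⟩, rfl⟩
    show a' ∈ Subgroup.centralizer (M : Set G)
    rw [Subgroup.mem_centralizer_iff]
    intro c hc
    exact (hcen c hc).symm
  have hK2 : ∀ a' ∈ M, ∀ f ∈ KA ρ (ZM M), toE ρ a' * f = f * toE ρ a' := by
    intro a' ha' f hf
    have hle : KA ρ (ZM M) ≤ Subalgebra.centralizer (ZMod q) {toE ρ a'} := by
      apply Algebra.adjoin_le
      rintro _ ⟨c, hc, rfl⟩
      rw [SetLike.mem_coe, Subalgebra.mem_centralizer_iff]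
      intro g hg
      rw [Set.mem_singleton_iff] at hg
      subst hg
      have h1 : c ∈ Subgroup.centralizer (M : Set G) := hc.2
      have h2 : a' * c = c * a' := Subgroup.mem_centralizer_iff.mp h1 a' ha'
      rw [← toE_mul, ← toE_mul, h2]
    have := hle hf
    rw [Subalgebra.mem_centralizer_iff] at this
    exact this (toE ρ a') (Set.mem_singleton _)
  obtain ⟨m, hVm, hidx⟩ := hDeg ρ hinj M (KA ρ (ZM M)) hFld hCl2 hK1 hK2
  have hq2 : 2 ≤ q := (Fact.out : q.Prime).two_le
  -- r^d ≤ m
  have hrdm : r ^ d ≤ m := by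
    rw [hd] at hidx
    have h1 : (r ^ d) ^ 2 ≤ m ^ 2 := by
      rw [← pow_mul, mul_comm]; exact hidx
    exact (Nat.pow_le_pow_iff_left (by norm_num)).mp h1
  -- m ≤ n
  have hKq : q ≤ Nat.card (KA ρ (ZM M)) := by
    haveI : Finite (Module.End (ZMod q) V) :=
      Finite.of_injective (fun f : Module.End (ZMod q) V => (f : V → V)) DFunLike.coe_injective
    haveI : Finite (KA ρ (ZM M)) := inferInstance
    have hinjK : Function.Injective (algebraMap (ZMod q) (KA ρ (ZM M))) :=
      (algebraMap (ZMod q) (KA ρ (ZM M))).injective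
    have := Nat.card_le_card_of_injective _ hinjK
    simpa [Nat.card_eq_fintype_card, ZMod.card] using this
  have hmn : m ≤ n := by
    by_contra hcon
    push_neg at hcon
    have h1 : q ^ n < q ^ m := Nat.pow_lt_pow_right hq2 hcon
    have h2 : q ^ m ≤ Nat.card (KA ρ (ZM M)) ^ m := Nat.pow_le_pow_left hKq m
    have h3 : Nat.card V = q ^ n := hV
    omega
  refine ⟨d, hdpos, le_trans hrdm hmn, ?_, ?_⟩
  · -- r = 2 → Odd q
    intro hr2
    by_contra hodd
    have hqeven : Even q := Nat.not_odd_iff_even.mp hodd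
    have hq2' : q = 2 := ((Fact.out : q.Prime).even_iff).mp hqeven
    have hzsq : z * z = 1 := by
      have := hzr
      rw [hr2, pow_two] at this
      exact this
    have hfK : toE ρ z - 1 ∈ KA ρ (ZM M) :=
      Subalgebra.sub_mem _ (Algebra.subset_adjoin ⟨z, hzA, rfl⟩) (Subalgebra.one_mem _)
    have hff : (toE ρ z - 1) * (toE ρ z - 1) = 0 := by
      have h1 : toE ρ z * toE ρ z = 1 := by rw [← toE_mul, hzsq, toE_one]
      have h2 : (toE ρ z - 1) * (toE ρ z - 1) = toE ρ z * toE ρ z - toE ρ z - toE ρ z + 1 := by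
        noncomm_ring
      rw [h2, h1]
      have h3 : (2 : ZMod q) = 0 := by
        have h5 : ((2 : ℕ) : ZMod q) = 0 := (ZMod.natCast_eq_zero_iff 2 q).mpr (by rw [hq2'])
        exact_mod_cast h5
      have h4 : (2 : ZMod q) • (1 - toE ρ z) = 0 := by rw [h3, zero_smul]
      rw [two_smul] at h4
      rw [← h4]; abel
    have hfne : toE ρ z - 1 ≠ 0 := by
      intro h
      apply hz1
      apply toE_inj ρ hinj
      rw [toE_one]
      exact sub_eq_zero.mp h
    have hfinj := hFld.2 _ hfK hfne
    apply hfne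
    ext v
    apply hfinj
    have := congrArg (fun f : Module.End (ZMod q) V => f v) hff
    simpa using this
  · intro k hk
    have := hXSyl M p r hp hr (Ne.symm hrp) hMn hMr hFpf k hk
    rw [hd] at this
    exact this

end Cfsg.Agent.Lib.Helper66.HUPT
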